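import Cfsg.Agent.H664.Eight.Base
import Cfsg.Agent.H664.R1.PSLTwo
import Cfsg.Agent.H597.L2Char
import Cfsg.Agent.H525.PslK
import Cfsg.Agent.CharDeep.PowerDegrees

/-!
# The degrees of `PSL₂(q)` (helper488, for S4899)

`ncard_even`: `|cd(PSL₂(q))| = 4` for `q ≥ 4` even; `ncard_odd`: `|cd(PSL₂(q))| = 5` for `q > 5` odd. For `q = 2m + 1` the even one of
`m`, `m + 1` is not a degree: if `h` is the number of the irreducible characters of degree `m` or `m + 1`, the sum of the squares of the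
degrees and the class number `m + 3` give `q ∣ 6 - 3h`, so `h = 2`.
-/

set_option autoImplicit false
set_option linter.unusedSectionVars false

namespace Cfsg.Agent.H488.Eight.Psl2

open Matrix Cfsg Cfsg.Agent.Characters.Core
open Cfsg.Agent.Blocks.Basic (charDegree_of_eq irr_one_eq_charDegree charDegree_pos)
open Cfsg.Agent.ClassicalGeometry.AutPSL.Root (pr pr_surjective pr_eq_one_iff)
open Cfsg.Agent.H681.DegBasic (mem_charDegrees)

section

variable {F : Type} [Field F] [Fintype F]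

local notation "PSL" => Matrix.ProjectiveSpecialLinearGroup (Fin 2) F
local notation "SL" => Matrix.SpecialLinearGroup (Fin 2) F

/-- inflation is injective -/
theorem card_le (v : ℕ) : Nat.card {χ : IrrCharacter PSL // charDegree (χ : PSL → ℂ) = v} ≤
    Nat.card {χ : IrrCharacter SL // (χ : SL → ℂ) 1 = (v : ℂ)} := by
  classical
  have : Finite (IrrCharacter SL) := finite_irr
  refine Nat.card_le_card_of_injective
    (fun χ : {χ : IrrCharacter PSL // charDegree (χ : PSL → ℂ) = v} =>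
      (⟨⟨(χ.1 : PSL → ℂ) ∘ pr, isIrr_comp pr pr_surjective χ.1.2⟩, by
        change (χ.1 : PSL → ℂ) (pr 1) = _
        rw [map_one, irr_one_eq_charDegree χ.1.2, χ.2]⟩ :
        {χ : IrrCharacter SL // (χ : SL → ℂ) 1 = (v : ℂ)})) ?_
  intro χ ψ h
  have h3 : (χ.1 : PSL → ℂ) ∘ (pr : SL →* PSL) = (ψ.1 : PSL → ℂ) ∘ pr :=
    congrArg (fun z => ((z.1 : IrrCharacter SL) : SL → ℂ)) h
  apply Subtype.ext
  apply Subtype.ext
  funext s
  obtain ⟨g, rfl⟩ := pr_surjective s
  exact congrFun h3 g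

variable {m : ℕ} (hq : Fintype.card F = 2 * m + 1) (hm : 3 ≤ m)

include hq hm

/-- the counts for `SL₂(q)` -/
theorem counts :
    Nat.card {χ : IrrCharacter SL // (χ : SL → ℂ) 1 = ((2 * m + 1 : ℕ) : ℂ)} = 1 ∧
    Nat.card {χ : IrrCharacter SL // (χ : SL → ℂ) 1 = ((m : ℕ) : ℂ)} = 2 ∧
    Nat.card {χ : IrrCharacter SL // (χ : SL → ℂ) 1 = ((m + 1 : ℕ) : ℂ)} = 2 := by
  classical
  obtain ⟨-, h⟩ := Cfsg.Agent.S2299.result (F := F) (by rw [hq]; exact ⟨m, rfl⟩)
  obtain ⟨-, h1, -, -, ha, hb⟩ := h (by omega)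
  have e1 : (Fintype.card F - 1) / 2 = m := by omega
  have e2 : (Fintype.card F + 1) / 2 = m + 1 := by omega
  rw [e1] at hb
  rw [e2] at ha
  rw [hq] at h1
  exact ⟨h1, hb, ha⟩

/-- the degrees of `PSL₂(q)`, first list -/
theorem cases (χ : IrrCharacter PSL) : charDegree (χ : PSL → ℂ) = 1 ∨ charDegree (χ : PSL → ℂ) = 2 * m + 1 ∨
    charDegree (χ : PSL → ℂ) = 2 * m + 2 ∨ charDegree (χ : PSL → ℂ) = 2 * m ∨
    charDegree (χ : PSL → ℂ) = m ∨ charDegree (χ : PSL → ℂ) = m + 1 := by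
  classical
  obtain ⟨h, -⟩ := Cfsg.Agent.S2299.result (F := F) (by rw [hq]; exact ⟨m, rfl⟩)
  have h1 := h _ (isIrr_comp pr pr_surjective χ.2)
  have h2 : ((χ : PSL → ℂ) ∘ (pr : SL →* PSL)) 1 = (charDegree (χ : PSL → ℂ) : ℂ) := by
    rw [Function.comp_apply, map_one, irr_one_eq_charDegree χ.2]
  have e1 : (Fintype.card F - 1) / 2 = m := by omega
  have e2 : (Fintype.card F + 1) / 2 = m + 1 := by omega
  rw [h2, e1, e2, hq] at h1
  rcases h1 with h | h | h | h | h | h
  · left; exact_mod_cast h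
  · right; left; exact_mod_cast h
  · right; right; left
    have : (charDegree (χ : PSL → ℂ) : ℂ) = ((2 * m + 2 : ℕ) : ℂ) := by rw [h]; push_cast; ring
    exact_mod_cast this
  · right; right; right; left
    have : (charDegree (χ : PSL → ℂ) : ℂ) = ((2 * m : ℕ) : ℂ) := by rw [h]; push_cast; ring
    exact_mod_cast this
  · right; right; right; right; right; exact_mod_cast h
  · right; right; right; right; left; exact_mod_cast h

/-- at least two characters of the odd degree -/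
theorem two_le {d : ℕ} (hd : d = m ∨ d = m + 1) (hodd : Odd d) :
    2 ≤ Nat.card {χ : IrrCharacter PSL // charDegree (χ : PSL → ℂ) = d} := by
  classical
  have hcount : Nat.card {χ : IrrCharacter SL // (χ : SL → ℂ) 1 = ((d : ℕ) : ℂ)} = 2 := by
    obtain ⟨-, h1, h2⟩ := counts hq hm
    rcases hd with rfl | rfl
    · exact h1
    · exact h2
  refine hcount.ge.trans ?_
  have : Finite (IrrCharacter PSL) := finite_irr
  have hdesc : ∀ χ : {χ : IrrCharacter SL // (χ : SL → ℂ) 1 = ((d : ℕ) : ℂ)},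
      ∃ θ : {χ : IrrCharacter PSL // charDegree (χ : PSL → ℂ) = d}, ∀ g : SL, (θ.1 : PSL → ℂ) (pr g) = (χ.1 : SL → ℂ) g := by
    rintro ⟨⟨χ, hχ⟩, hχd⟩
    change χ 1 = _ at hχd
    have hz := Cfsg.Agent.H663.GmnPsl.one_of_odd
      (Cfsg.Agent.H663.GmnPsl.perfect (F := F) (by omega)) hχ hχd hodd (z := Cfsg.Agent.H984.SLTwo.z0)
        Cfsg.Agent.H984.SLTwo.z0_comm Cfsg.Agent.H984.SLTwo.z0_mul_self
    obtain ⟨θ, hθ, hθχ⟩ := Cfsg.Agent.H597.L2Char.exists_descent hχ hz
    refine ⟨⟨⟨θ, hθ⟩, ?_⟩, hθχ⟩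
    apply charDegree_of_eq
    change θ 1 = _
    rw [← hχd, ← hθχ 1, map_one]
  choose f hf using hdesc
  refine Nat.card_le_card_of_injective f ?_
  intro χ ψ h
  apply Subtype.ext
  apply Subtype.ext
  funext g
  rw [← hf, ← hf, h]

/-- the even one of `m`, `m + 1` is not a degree -/
theorem not_even {d : ℕ} (hd : d = m ∨ d = m + 1) (he : Even d) (χ : IrrCharacter PSL) :
    charDegree (χ : PSL → ℂ) ≠ d := by
  classical
  intro hχ
  have : Finite (IrrCharacter PSL) := finite_irr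
  have : Fintype (IrrCharacter PSL) := Fintype.ofFinite _
  -- the other one
  obtain ⟨d', hd', hodd, hdd'⟩ : ∃ d', (d' = m ∨ d' = m + 1) ∧ Odd d' ∧ ({d, d'} : Finset ℕ) = {m, m + 1} := by
    rcases hd with rfl | rfl
    · exact ⟨d + 1, Or.inr rfl, he.add_one, rfl⟩
    · refine ⟨m, Or.inl rfl, ?_, Finset.pair_comm _ _⟩
      rcases Nat.even_or_odd m with h | h
      · exact absurd he (by simpa using h.add_one)
      · exact h
  have hne : d ≠ d' := by
    rintro rfl
    exact (Nat.not_even_iff_odd.mpr hodd) he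
  set N : ℕ → ℕ := fun v => (Finset.univ.filter fun χ : IrrCharacter PSL => charDegree (χ : PSL → ℂ) = v).card with hN
  have hNc : ∀ v, N v = Nat.card {χ : IrrCharacter PSL // charDegree (χ : PSL → ℂ) = v} := by
    intro v
    rw [Nat.card_eq_fintype_card, Fintype.card_of_subtype]
    intro x
    rw [Finset.mem_filter]
    exact ⟨fun h => h.2, fun h => ⟨Finset.mem_univ _, h⟩⟩
  obtain ⟨c1, c2, c3⟩ := counts hq hm
  have u1 : N (2 * m + 1) ≤ 1 := by rw [hNc]; exact (card_le _).trans c1.le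
  have u2 : N m ≤ 2 := by rw [hNc]; exact (card_le _).trans c2.le
  have u3 : N (m + 1) ≤ 2 := by rw [hNc]; exact (card_le _).trans c3.le
  have l1 : 1 ≤ N (2 * m + 1) := by
    obtain ⟨h, -⟩ := Cfsg.Agent.H664.R1.PSLTwo.degrees_odd (F := F) (by rw [hq]; exact ⟨m, rfl⟩) (by omega)
    rw [hq] at h
    obtain ⟨ψ, hψ⟩ := h
    rw [hN]
    exact Finset.card_pos.mpr ⟨ψ, Finset.mem_filter.mpr ⟨Finset.mem_univ _, hψ⟩⟩
  have l2 : 2 ≤ N d' := by rw [hNc]; exact two_le hq hm hd' hodd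
  have l3 : 1 ≤ N d := by
    rw [hN]
    exact Finset.card_pos.mpr ⟨χ, Finset.mem_filter.mpr ⟨Finset.mem_univ _, hχ⟩⟩
  have lsum : 3 ≤ N m + N (m + 1) := by
    have h1 : ∑ v ∈ ({d, d'} : Finset ℕ), N v = N d + N d' := Finset.sum_pair hne
    have h2 : ∑ v ∈ ({m, m + 1} : Finset ℕ), N v = N m + N (m + 1) := Finset.sum_pair (by omega)
    rw [hdd', h2] at h1
    omega
  -- class number and sum of squares
  have hk : (Finset.univ : Finset (IrrCharacter PSL)).card = m + 3 := by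
    have h1 := Cfsg.Agent.H525.PslK.psl2_odd (F := F) (by rw [hq]; exact ⟨m, rfl⟩)
    rw [← card_irr, hq, Nat.card_eq_fintype_card] at h1
    rw [Finset.card_univ]
    omega
  have hsq : ∑ χ : IrrCharacter PSL, (charDegree (χ : PSL → ℂ)) ^ 2 = 2 * m * (m + 1) * (2 * m + 1) := by
    have h1 := Cfsg.Agent.CharDeep.PowerDegrees.sum_sq (G := PSL)
    have h2 : ((∑ χ : IrrCharacter PSL, (charDegree (χ : PSL → ℂ)) ^ 2 : ℕ) : ℂ) = (Nat.card PSL : ℂ) := by
      rw [← h1]
      push_cast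
      refine Finset.sum_congr rfl fun χ _ => ?_
      rw [irr_one_eq_charDegree χ.2]
    have h3 := Cfsg.Agent.SmallSimple.PSLTwoPart.card_psl_two_odd (F := F) (by rw [hq]; exact ⟨m, rfl⟩)
    have h4 : (2 * m + 1) ^ 2 - 1 = 4 * m * (m + 1) := by
      rw [show (2 * m + 1) ^ 2 = 4 * m * (m + 1) + 1 by ring]
      omega
    rw [hq, h4] at h3
    have h5 : ∑ χ : IrrCharacter PSL, (charDegree (χ : PSL → ℂ)) ^ 2 = Nat.card PSL := by exact_mod_cast h2
    rw [h5]
    nlinarith
  -- the weights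
  have hw : ∀ χ : IrrCharacter PSL, ((2 * m + 1 : ℕ) : ℤ) ∣ 4 * (charDegree (χ : PSL → ℂ) : ℤ) ^ 2 -
      (4 - 4 * (if charDegree (χ : PSL → ℂ) = 2 * m + 1 then 1 else 0) -
        3 * (if charDegree (χ : PSL → ℂ) = m then 1 else 0) -
        3 * (if charDegree (χ : PSL → ℂ) = m + 1 then 1 else 0)) := by
    intro χ
    rcases cases hq hm χ with h | h | h | h | h | h
    · rw [h, if_neg (by omega), if_neg (by omega), if_neg (by omega)]
      exact ⟨0, by norm_num⟩
    · rw [h, if_pos rfl, if_neg (by omega), if_neg (by omega)]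
      exact ⟨4 * (2 * m + 1), by push_cast; ring⟩
    · rw [h, if_neg (by omega), if_neg (by omega), if_neg (by omega)]
      exact ⟨4 * (2 * m + 3), by push_cast; ring⟩
    · rw [h, if_neg (by omega), if_neg (by omega), if_neg (by omega)]
      exact ⟨4 * (2 * m - 1), by push_cast; ring⟩
    · rw [h, if_neg (by omega), if_pos rfl, if_neg (by omega)]
      exact ⟨2 * m - 1, by push_cast; ring⟩
    · rw [h, if_neg (by omega), if_neg (by omega), if_pos rfl]
      exact ⟨2 * m + 3, by push_cast; ring⟩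
  have hsum := Finset.dvd_sum (s := (Finset.univ : Finset (IrrCharacter PSL))) (fun χ _ => hw χ)
  rw [Finset.sum_sub_distrib, Finset.sum_sub_distrib, Finset.sum_sub_distrib, Finset.sum_sub_distrib,
    ← Finset.mul_sum, ← Finset.mul_sum, ← Finset.mul_sum, ← Finset.mul_sum, Finset.sum_const, hk] at hsum
  have s1 : ∀ v : ℕ, ∑ χ : IrrCharacter PSL, (if charDegree (χ : PSL → ℂ) = v then (1 : ℤ) else 0) = (N v : ℤ) := by
    intro v
    rw [Finset.sum_ite, Finset.sum_const_zero, add_zero, Finset.sum_const, nsmul_eq_mul, mul_one]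
  rw [s1, s1, s1] at hsum
  have hsq' : ∑ χ : IrrCharacter PSL, (charDegree (χ : PSL → ℂ) : ℤ) ^ 2 = 2 * m * (m + 1) * (2 * m + 1) := by
    exact_mod_cast hsq
  rw [hsq'] at hsum
  have hN1 : N (2 * m + 1) = 1 := by omega
  rw [hN1] at hsum
  have h6 : ((2 * m + 1 : ℕ) : ℤ) ∣ 6 - 3 * ((N m + N (m + 1) : ℕ) : ℤ) := by
    obtain ⟨c, hc⟩ := hsum
    refine ⟨4 * (2 * m * (m + 1)) - c - 2, ?_⟩
    push_cast at hc ⊢
    simp only [nsmul_eq_mul] at hc
    push_cast at hc
    linear_combination -hc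
  obtain ⟨c, hc⟩ := h6
  have hM : N m + N (m + 1) ≤ 4 := by omega
  have hm3 : (7 : ℤ) ≤ ((2 * m + 1 : ℕ) : ℤ) := by
    have : 7 ≤ 2 * m + 1 := by omega
    exact_mod_cast this
  have hneg : 6 - 3 * ((N m + N (m + 1) : ℕ) : ℤ) < 0 := by
    have : (3 : ℤ) ≤ ((N m + N (m + 1) : ℕ) : ℤ) := by exact_mod_cast lsum
    linarith
  have hge : -6 ≤ 6 - 3 * ((N m + N (m + 1) : ℕ) : ℤ) := by
    have : ((N m + N (m + 1) : ℕ) : ℤ) ≤ 4 := by exact_mod_cast hM
    linarith
  have hc0 : c < 0 := by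
    by_contra h
    push Not at h
    have := mul_nonneg (by linarith : (0 : ℤ) ≤ ((2 * m + 1 : ℕ) : ℤ)) h
    linarith
  have hc1 : c ≤ -1 := by omega
  nlinarith

end

theorem ncard_odd {F : Type} [Field F] [Fintype F] (h2 : ringChar F ≠ 2) (h5 : 5 < Fintype.card F) :
    (charDegrees (Matrix.ProjectiveSpecialLinearGroup (Fin 2) F)).ncard = 5 := by
  classical
  obtain ⟨m, hq⟩ : ∃ m, Fintype.card F = 2 * m + 1 := by
    rcases Nat.even_or_odd (Fintype.card F) with h | h
    · exact absurd (FiniteField.even_card_iff_char_two.2 (Nat.even_iff.1 h)) h2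
    · exact h
  have hm : 3 ≤ m := by omega
  obtain ⟨d, e, hd, hodd, hev, hde⟩ : ∃ d e, (d = m ∨ d = m + 1) ∧ Odd d ∧ Even e ∧ ((d = m ∧ e = m + 1) ∨ (d = m + 1 ∧ e = m)) := by
    rcases Nat.even_or_odd m with h | h
    · exact ⟨m + 1, m, Or.inr rfl, h.add_one, h, Or.inr ⟨rfl, rfl⟩⟩
    · exact ⟨m, m + 1, Or.inl rfl, h, h.add_one, Or.inl ⟨rfl, rfl⟩⟩
  obtain ⟨k1, k2, k3⟩ := Cfsg.Agent.H664.R1.PSLTwo.degrees_odd (F := F) (by rw [hq]; exact ⟨m, rfl⟩) h5
  rw [hq] at k1 k2 k3
  obtain ⟨θ, hθ, hθd⟩ := Cfsg.Agent.H597.L2Char.exists_half hq (by omega) hd hodd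
  have k4 : d ∈ charDegrees (Matrix.ProjectiveSpecialLinearGroup (Fin 2) F) := ⟨⟨θ, hθ⟩, hθd⟩
  refine Cfsg.Agent.H664.Eight.ncard_eq_of_list [1, d, 2 * m, 2 * m + 1, 2 * m + 2] ?_ ?_
  · have h1 : 1 < d := by omega
    have h3 : d < 2 * m := by omega
    simp only [List.nodup_cons, List.mem_cons, List.not_mem_nil, or_false, not_or, not_false_eq_true,
      List.nodup_nil, and_true]
    omega
  · intro x
    simp only [List.mem_cons, List.not_mem_nil, or_false]
    constructor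
    · rintro ⟨χ, rfl⟩
      have hno := not_even hq hm (d := e) (by omega) hev χ
      rcases cases hq hm χ with h | h | h | h | h | h <;> omega
    · rintro (rfl | rfl | rfl | rfl | rfl)
      · exact Cfsg.Agent.H664.Eight.one_mem
      · exact k4
      · simpa using k3
      · exact k1
      · exact k2

theorem ncard_even {F : Type} [Field F] [Fintype F] (h2 : ringChar F = 2) (h4 : 4 ≤ Fintype.card F) :
    (charDegrees (Matrix.ProjectiveSpecialLinearGroup (Fin 2) F)).ncard = 4 := by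
  classical
  have hc : CharP F 2 := h2 ▸ ringChar.charP F
  obtain ⟨e⟩ := WeakTI.PslTwo.nonempty_equiv (F := F)
  obtain ⟨k1, k2, k3⟩ := Cfsg.Agent.H664.R1.PSLTwo.degrees_even (F := F) h4
  refine Cfsg.Agent.H664.Eight.ncard_eq_of_list [1, Fintype.card F - 1, Fintype.card F, Fintype.card F + 1] ?_ ?_
  · simp only [List.nodup_cons, List.mem_cons, List.not_mem_nil, or_false, not_or, not_false_eq_true,
      List.nodup_nil, and_true]
    omega
  · intro x
    simp only [List.mem_cons, List.not_mem_nil, or_false]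
    constructor
    · rintro ⟨χ, rfl⟩
      obtain ⟨h, -⟩ := Cfsg.Agent.S2300.result (F := F)
      have h1 := h _ (isIrr_comp pr pr_surjective χ.2)
      have h3 : ((χ : Matrix.ProjectiveSpecialLinearGroup (Fin 2) F → ℂ) ∘
          (pr : Matrix.SpecialLinearGroup (Fin 2) F →* Matrix.ProjectiveSpecialLinearGroup (Fin 2) F)) 1 =
          (charDegree (χ : Matrix.ProjectiveSpecialLinearGroup (Fin 2) F → ℂ) : ℂ) := by
        rw [Function.comp_apply, map_one, irr_one_eq_charDegree χ.2]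
      rw [h3] at h1
      rcases h1 with h | h | h | h
      · left; exact_mod_cast h
      · right; left
        have : (charDegree (χ : Matrix.ProjectiveSpecialLinearGroup (Fin 2) F → ℂ) : ℂ) =
          ((Fintype.card F - 1 : ℕ) : ℂ) := by rw [h, Nat.cast_sub (by omega), Nat.cast_one]
        exact_mod_cast this
      · right; right; left; exact_mod_cast h
      · right; right; right; exact_mod_cast h
    · rintro (rfl | rfl | rfl | rfl)
      · exact Cfsg.Agent.H664.Eight.one_mem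
      · exact k3
      · exact k1
      · exact k2

end Cfsg.Agent.H488.Eight.Psl2
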